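import Mathlib
import Cfsg.Agent.Lib.Leech.Enum
import Cfsg.Agent.Lib.Leech.Charact
import Cfsg.Agent.Lib.Leech.Conf

/-!
Enumeration of the values of a linear functional on the minimal vectors of the Leech lattice.
-/

set_option autoImplicit false

namespace CfsgLib.Co1Loc

open Cfsg Finset CfsgLib.Leech CfsgLib.Golay
open CfsgLib.Comput (force force_eq band band_eq_true)

/-- evaluate a list -/
noncomputable def forceL {β : Type} (l : List ℕ) : (List ℕ → β) → β :=
  List.rec (fun k => k []) (fun x _ ih k => force x fun y => ih fun t => k (y :: t)) l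

theorem forceL_eq {β : Type} (l : List ℕ) (k : List ℕ → β) : forceL l k = k l := by
  induction l generalizing k with
  | nil => rfl
  | cons x l ih => exact (force_eq x fun y => forceL l fun t => k (y :: t)).trans (ih _)

/-- `acc + ∑ (a or b) * c j` according to the bits of `m` -/
noncomputable def sumM (a b : ℕ) (c : List ℕ) : ℕ → ℕ → ℕ :=
  List.rec (fun _ acc => acc) (fun x _ ih m acc => force (Nat.shiftRight m 1) fun m' =>
    force (Nat.add acc (Nat.mul (Bool.rec b a (Nat.beq (Nat.land m 1) 1)) x)) (ih m')) c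

theorem land_one (m : ℕ) : Nat.beq (Nat.land m 1) 1 = m.testBit 0 := by
  rw [← tb_eq]; rfl

theorem shr_one (m j : ℕ) : (Nat.shiftRight m 1).testBit j = m.testBit (j + 1) := by
  rw [add_comm]; exact Nat.testBit_shiftRight m

theorem sumM_eq (a b : ℕ) (c : List ℕ) (m acc : ℕ) : sumM a b c m acc =
    acc + ∑ j ∈ range c.length, (if m.testBit j then a else b) * c.getD j 0 := by
  induction c generalizing m acc with
  | nil => rfl
  | cons x c ih =>
    have e : sumM a b (x :: c) m acc = force (Nat.shiftRight m 1) fun m' =>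
      force (Nat.add acc (Nat.mul (Bool.rec b a (Nat.beq (Nat.land m 1) 1)) x)) (sumM a b c m') := rfl
    rw [e, force_eq, force_eq, ih, List.length_cons, sum_range_succ', land_one]
    simp only [shr_one, List.getD_cons_succ, List.getD_cons_zero, Nat.add_eq, Nat.mul_eq]
    cases m.testBit 0 <;> simp <;> ring

/-- the odd vectors with a given codeword -/
noncomputable def allOdd (P : ℕ → Bool) (S : ℕ) (c : List ℕ) : ℕ → Bool :=
  List.rec (fun _ => true) (fun x _ ih m => band (Bool.rec (P (Nat.sub S (Nat.mul 4 x)))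
    (P (Nat.add S (Nat.mul 4 x))) (Nat.beq (Nat.land m 1) 1)) (force (Nat.shiftRight m 1) ih)) c

theorem allOdd_spec {P : ℕ → Bool} {S : ℕ} {c : List ℕ} {m : ℕ} (h : allOdd P S c m = true) {i : ℕ}
    (hi : i < c.length) :
    P (if m.testBit i then S + 4 * c.getD i 0 else S - 4 * c.getD i 0) = true := by
  induction c generalizing m i with
  | nil => simp at hi
  | cons x c ih =>
    obtain ⟨h1, h2⟩ := band_eq_true.1 h
    rw [force_eq] at h2
    rcases i with _ | i
    · rw [land_one] at h1
      revert h1
      cases m.testBit 0 <;> exact id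
    · rw [← shr_one]
      exact ih h2 (by simpa using hi)

/-- the selected columns, times four -/
noncomputable def sel (c : List ℕ) : ℕ → List ℕ :=
  List.rec (fun _ => []) (fun x _ ih m => force (Nat.shiftRight m 1) fun m' =>
    Bool.rec (ih m') (Nat.mul 4 x :: ih m') (Nat.beq (Nat.land m 1) 1)) c

/-- all even subset sums -/
noncomputable def sgT (P : ℕ → Bool) (l : List ℕ) : ℕ → Bool → Bool :=
  List.rec (fun a p => Bool.rec (P a) true p) (fun x _ ih a p => band (ih a p)
    (force (Nat.add a x) fun a' => Bool.rec (ih a' true) (ih a' false) p)) l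

theorem sgT_spec {P : ℕ → Bool} {c : List ℕ} {m a : ℕ} {p : Bool} (h : sgT P (sel c m) a p = true)
    (s : ℕ → Bool) (hs : (p.toNat + ∑ j ∈ range c.length, if m.testBit j && s j then 1 else 0) % 2 = 0) :
    P (a + ∑ j ∈ range c.length, (if m.testBit j && s j then 4 else 0) * c.getD j 0) = true := by
  induction c generalizing m a p s with
  | nil => cases p <;> simp_all [sel, sgT]
  | cons x c ih =>
    have e : sel (x :: c) m = force (Nat.shiftRight m 1) fun m' =>
      Bool.rec (sel c m') (Nat.mul 4 x :: sel c m') (Nat.beq (Nat.land m 1) 1) := rfl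
    rw [e, force_eq, land_one] at h
    rw [List.length_cons, sum_range_succ'] at hs ⊢
    simp only [← shr_one, List.getD_cons_succ, List.getD_cons_zero] at hs ⊢
    generalize Nat.shiftRight m 1 = m' at h hs ⊢
    revert h hs
    cases m.testBit 0
    · intro h hs
      simpa using ih h (fun j => s (j + 1)) (by simpa using hs)
    · intro h hs
      obtain ⟨h1, h2⟩ := band_eq_true.1 h
      rw [force_eq] at h2
      revert hs
      cases s 0
      · intro hs
        simpa using ih h1 (fun j => s (j + 1)) (by simpa using hs)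
      · intro hs
        have h3 : sgT P (sel c m') (a + 4 * x) (!p) = true := by cases p <;> exact h2
        have := ih h3 (fun j => s (j + 1)) (by cases p <;> simp at hs ⊢ <;> omega)
        simpa [add_assoc, add_comm (4 * x)] using this

/-- the test for one codeword -/
noncomputable def cwOK (P : ℕ → Bool) (c : List ℕ) (K k : ℕ) : Bool :=
  force (Golay.cw k) fun m => band (force (sumM 3 5 c m K) fun S => allOdd P S c m)
    (Bool.rec true (force (sumM 2 4 c m K) fun S => forceL (sel c m) fun l => sgT P l S false)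
      (Nat.beq (pc m) 8))

/-- the test for the vectors with two coordinates `±4` -/
noncomputable def pairOK (P : ℕ → Bool) (c : List ℕ) (K : ℕ) : Bool :=
  force (sumM 4 4 c 0 K) fun S => allLT 24 fun i => allLT 24 fun j => Nat.beq i j ||
    force (Nat.mul 4 (c.getD i 0)) fun x => force (Nat.mul 4 (c.getD j 0)) fun y =>
      P (Nat.add (Nat.add S x) y) && P (Nat.sub (Nat.add S x) y) && P (Nat.sub (Nat.sub S x) y)

/-- the test for a range of codewords -/
noncomputable def rngOK (P : ℕ → Bool) (c : List ℕ) (K a n : ℕ) : Bool :=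
  allLT n fun k => cwOK P c K (Nat.add a k)

/-- the value of the functional -/
def val (c : List ℕ) (K : ℕ) (x : GolayPt → ℤ) : ℤ := K + ∑ i, (x i + 4) * c.getD (ix i) 0

theorem cast_sumM {c : List ℕ} (hc : c.length = 24) (a b m K : ℕ) : (sumM a b c m K : ℤ) =
    K + ∑ i : GolayPt, (if i ∈ ofMask m then (a : ℤ) else b) * c.getD (ix i) 0 := by
  rw [sumM_eq, hc, ← sum_pt fun j => (if m.testBit j then a else b) * c.getD j 0]
  push_cast
  simp only [mem_ofMask]

theorem val_add (c : List ℕ) (K : ℕ) (x : GolayPt → ℤ) (a : GolayPt) (k : ℤ) :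
    val c K (x + Pi.single a k) = val c K x + k * c.getD (ix a) 0 := by
  have : ∀ i, (x + Pi.single a k : GolayPt → ℤ) i + 4 = x i + 4 + if i = a then k else 0 := fun i => by
    simp only [Pi.add_apply, Pi.single_apply]; ring
  simp only [val, this, add_mul (x _ + 4), sum_add_distrib, ite_mul, zero_mul, sum_ite_eq', mem_univ,
    if_true]
  ring

theorem val_nonneg (c : List ℕ) (K : ℕ) {x : GolayPt → ℤ} (h : ∀ i, -4 ≤ x i) : 0 ≤ val c K x :=
  add_nonneg (by positivity) (sum_nonneg fun i _ => mul_nonneg (by have := h i; omega) (by positivity))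

theorem forall_min {P : ℕ → Bool} {c : List ℕ} (hc : c.length = 24) {K : ℕ}
    (h1 : pairOK P c K = true) (h2 : ∀ k < 4096, cwOK P c K k = true) (v : leechLattice)
    (hv : sqNorm v.1 = 32) : ∃ n : ℕ, (n : ℤ) = val c K v.1 ∧ P n = true := by
  obtain ⟨k, hk, e⟩ := exists_cw (isCW_cw v.2)
  have h3 := h2 k hk
  simp only [cwOK, force_eq, forceL_eq, band_eq_true] at h3
  have hl := fun i : GolayPt => (ix_lt i).trans_eq hc.symm
  rcases even_or_odd v.2 with he | ho
  · rcases (show (Leech.cw v.1).card = 8 ∨ Leech.cw v.1 = ∅ by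
      have := four_mul_card_cw_le he
      have := (isCW_cw v.2).card_eq
      rw [← card_eq_zero]; omega) with h8 | h0
    · have h4 := abs_eq_of_card_cw he (by rw [hv, h8]; rfl)
      have h5 := h3.2
      rw [← card_ofMask (cw_lt hk), e, h8] at h5
      have h6 : ∀ i, v.1 i + 4 = (if i ∈ ofMask (Golay.cw k) then 2 else 4) +
          if (Golay.cw k).testBit (ix i) && decide (v.1 (pt (ix i)) = 2) then 4 else 0 := fun i => by
        have := h4 i
        simp only [← e, pt_ix, Bool.and_eq_true, ← mem_ofMask, decide_eq_true_eq] at this ⊢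
        split_ifs at this ⊢ <;> rcases abs_cases (v.1 i) <;> simp_all <;> omega
      refine ⟨_, ?_, sgT_spec h5 (fun j => v.1 (pt j) = 2) ?_⟩
      · rw [Nat.cast_add, cast_sumM hc, hc, ← sum_pt fun j => (if (Golay.cw k).testBit j &&
          decide (v.1 (pt j) = 2) then 4 else 0) * c.getD j 0, val, add_assoc]
        push_cast
        simp only [h6, add_mul, sum_add_distrib]
      · have h7 := sum_mod_of_even v.2 he
        have h9 : ∑ i, (v.1 i + 4) = _ := sum_congr rfl fun i _ => h6 i
        rw [sum_add_distrib, sum_add_distrib, sum_ite, filter_mem_eq_inter, univ_inter, filter_not,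
          filter_mem_eq_inter, univ_inter, e] at h9
        simp only [sum_const, card_sdiff_of_subset (subset_univ _), h8, card_univ, card_pt] at h9
        rw [hc, ← sum_pt fun j => if (Golay.cw k).testBit j && decide (v.1 (pt j) = 2) then 1 else 0]
        have h10 : ∀ b : Bool, (if b then (4 : ℤ) else 0) = 4 * ((if b then 1 else 0 : ℕ) : ℤ) := by decide
        simp only [h10, ← mul_sum, ← Nat.cast_sum] at h9
        simp only [Bool.toNat_false, nsmul_eq_mul] at h9 ⊢
        omega
    · obtain ⟨a, ha⟩ : ∃ a, v.1 a ≠ 0 := by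
        by_contra h; push Not at h
        simp [sqNorm, h] at hv
      have h4 : v.1 a = 4 ∨ (-v).1 a = 4 := by
        have h5 : a ∉ Leech.cw v.1 := by simp [h0]
        have h6 := sq_le_sqNorm v.1 a
        have h7 : |v.1 a| < 6 := abs_lt_of_sq_lt_sq (by omega) (by norm_num)
        have := he a
        have := abs_lt.1 h7
        rw [mem_cw] at h5
        simp only [AddSubgroup.coe_neg, Pi.neg_apply]
        omega
      simp only [pairOK, force_eq, allLT_iff, Bool.or_eq_true, Bool.and_eq_true, Nat.beq_eq,
        Nat.add_eq, Nat.sub_eq, Nat.mul_eq] at h1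
      have hS : (sumM 4 4 c 0 K : ℤ) = val c K 0 := by simp [cast_sumM hc, val]
      have key : ∀ a b : GolayPt, b ≠ a → ∀ s t : ℤ, (s = 4 ∨ s = -4) → (t = 4 ∨ t = -4) →
          ∃ n : ℕ, (n : ℤ) = val c K (Pi.single a s + Pi.single b t) ∧ P n = true := by
        intro a b hb s t hs ht
        have h5 := (h1 _ (ix_lt a) _ (ix_lt b)).resolve_left fun h => hb (ix_injective h).symm
        have h6 := (h1 _ (ix_lt b) _ (ix_lt a)).resolve_left fun h => hb (ix_injective h)
        have h7 := val_nonneg c K (x := Pi.single a s + Pi.single b t) fun i => by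
          simp only [Pi.add_apply, Pi.single_apply]; split_ifs <;> simp_all <;> omega
        have h8 := val_add c K (Pi.single a s) b t
        have h9 := val_add c K 0 a s
        rw [zero_add] at h9
        rcases hs with rfl | rfl <;> rcases ht with rfl | rfl
        exacts [⟨_, by omega, h5.1.1⟩, ⟨_, by omega, h5.1.2⟩, ⟨_, by omega, h6.1.2⟩, ⟨_, by omega, h5.2⟩]
      rcases h4 with h4 | h4
      · obtain ⟨b, hb, h5 | h5⟩ := shape_four hv h4
        · exact h5 ▸ key a b hb 4 4 (by simp) (by simp)
        · rw [h5, sub_eq_add_neg, ← Pi.single_neg]; exact key a b hb 4 (-4) (by simp) (by simp)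
      · obtain ⟨b, hb, h5 | h5⟩ := shape_four (v := -v) (by simpa [sqNorm] using hv) h4 <;>
          rw [AddSubgroup.coe_neg, neg_eq_iff_eq_neg] at h5 <;> rw [h5]
        · rw [neg_add, ← Pi.single_neg, ← Pi.single_neg]; exact key a b hb _ _ (by simp) (by simp)
        · rw [neg_sub', sub_neg_eq_add, ← Pi.single_neg]; exact key a b hb _ _ (by simp) (by simp)
  · obtain ⟨a, ha⟩ := exists_oddMin ho hv
    let y : GolayPt → ℤ := fun i => if i ∈ ofMask (Golay.cw k) then -1 else 1
    have hS : (sumM 3 5 c (Golay.cw k) K : ℤ) = val c K y := by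
      rw [cast_sumM hc, val]
      exact congrArg _ (sum_congr rfl fun i _ => by simp only [y]; split_ifs <;> rfl)
    have h4 : v.1 = y + Pi.single a (if a ∈ ofMask (Golay.cw k) then 4 else -4) := funext fun i => by
      have := congrFun ha i
      simp only [sgn, oddMin, ← e, y, Pi.add_apply, Pi.single_apply] at this ⊢
      split_ifs at this ⊢ <;> simp_all <;> omega
    have h5 := val_nonneg c K (x := v.1) fun i => by
      have := congrFun ha i
      simp only [sgn, oddMin] at this
      split_ifs at this <;> omega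
    refine ⟨_, ?_, allOdd_spec h3.1 (hl a)⟩
    rw [h4, val_add] at h5 ⊢
    simp only [mem_ofMask] at h5 ⊢
    split_ifs at h5 ⊢ <;> omega

theorem cw_of_rng {P : ℕ → Bool} {c : List ℕ} {K n r : ℕ} (hn : r * n = 4096)
    (h : ∀ i < r, rngOK P c K (i * n) n = true) : ∀ k < 4096, cwOK P c K k = true := fun k hk => by
  have h0 : 0 < n := Nat.pos_of_ne_zero fun e => by simp [e] at hn
  have := of_allLT (h (k / n) (by rw [Nat.div_lt_iff_lt_mul h0]; omega)) (Nat.mod_lt k h0)
  rwa [Nat.add_eq, Nat.div_add_mod'] at this

end CfsgLib.Co1Loc
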