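import Mathlib
import Cfsg.Agent.Lib.Co1Loc.MinEnum
import Cfsg.Agent.Lib.Leech.Orb3
import Cfsg.Agent.Lib.Leech.Mono

/-!
Upper bounds for the orders of centralisers in `Co0` through chains of stabilisers of minimal vectors.
-/

set_option autoImplicit false

namespace CfsgLib.Co1Loc

open Cfsg Finset CfsgLib.Leech CfsgLib.Golay MulAction
open CfsgLib.Comput (force force_eq band band_eq_true)

/-- the packed coordinates of a list of vectors -/
noncomputable def colF (F : List ℕ) (j : ℕ) : ℤ :=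
  List.rec 0 (fun u _ ih => (dg u j : ℤ) - 16 + 16 * ih) F

/-- the packed inner products with a list of vectors -/
noncomputable def profN (F : List ℕ) (b : ℕ) : ℤ := List.rec 0 (fun u _ ih => dotN b u + 16 * ih) F

theorem sum_colF (F : List ℕ) {x : GolayPt → ℤ} {b : ℕ} (h : ∀ u ∈ F, dotInt x (dec u) = dotN b u) :
    ∑ i, x i * colF F (ix i) = profN F b := by
  induction F with
  | nil => simp [colF, profN]
  | cons u F ih =>
    change ∑ i, x i * ((dg u (ix i) : ℤ) - 16 + 16 * colF F (ix i)) = dotN b u + 16 * profN F b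
    rw [← ih fun u hu => h u (List.mem_cons_of_mem _ hu), ← h u List.mem_cons_self, dotInt, mul_sum,
      ← sum_add_distrib]
    exact sum_congr rfl fun i _ => by simp only [dec]; ring

/-- the offset -/
def K0 : ℕ := 0x6318c6318c6318c6318c6318c6318c

/-- the test for the columns -/
noncomputable def colsOK (F : List ℕ) (M : ℕ) (c : List ℕ) : Bool :=
  Nat.beq c.length 24 && allLT 24 fun j => (c.getD j 0 : ℤ) == 32 ^ j + 2 ^ 120 * (colF F j % 2 ^ M)

/-- membership -/
noncomputable def memL (x : ℕ) (L : List ℕ) : Bool := anyL L (Nat.beq x)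

theorem memL_iff {x : ℕ} {L : List ℕ} : memL x L = true ↔ x ∈ L := by simp [memL, anyL_iff]

/-- the test for one vector -/
noncomputable def tst (mask p B : ℕ) (T L : List ℕ) (n : ℕ) : Bool :=
  force (Nat.land (Nat.shiftRight n 120) mask) fun h =>
    Bool.rec true (!memL h T || memL (Nat.land n 0xffffffffffffffffffffffffffffff) L) (tb B (Nat.mod h p))

/-- the target value -/
noncomputable def tgt (F : List ℕ) (M b : ℕ) : ℕ :=
  ((profN F b + 4 * ∑ j ∈ range 24, colF F j) % 2 ^ M).toNat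

/-- the test for the targets -/
noncomputable def tgtOK (F : List ℕ) (M p B : ℕ) (T bs : List ℕ) : Bool :=
  allL bs fun b => force (tgt F M b) fun t => memL t T && tb B (Nat.mod t p)

theorem closed {F c T L bs : List ℕ} {M p B mask : ℕ} (hm : mask = 2 ^ M - 1)
    (hc : colsOK F M c = true) (ht : tgtOK F M p B T bs = true)
    (h1 : pairOK (tst mask p B T L) c K0 = true)
    (h2 : ∀ k < 4096, cwOK (tst mask p B T L) c K0 k = true) {b : ℕ} (hb : b ∈ bs)
    {v : leechLattice} (hv : sqNorm v.1 = 32) (h : ∀ u ∈ F, dotInt v.1 (dec u) = dotN b u) :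
    ∃ N ∈ L, Rep N v.1 := by
  simp only [colsOK, Bool.and_eq_true, Nat.beq_eq, allLT_iff, beq_iff_eq] at hc
  obtain ⟨n, e, hn⟩ := forall_min hc.1 h1 h2 v hv
  have hb' := (allL_iff _ _).1 ht b hb
  rw [force_eq, Bool.and_eq_true] at hb'
  have hx := bound_of_sqNorm (x := v.1) (by omega)
  have hr : Rep (enc v.1 + OFF).toNat v.1 := rep_of_cast (fun i => by have := hx i; omega)
    (Int.toNat_of_nonneg (by
      rw [OFF_eq, enc_apply, ← sum_add_distrib]
      exact sum_nonneg fun i _ => by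
        rw [← add_mul]; exact mul_nonneg (by have := hx i; omega) (by positivity)))
  generalize (enc v.1 + OFF).toNat = N at hr
  have h3 : val c K0 v.1 = N + 2 ^ 120 * ∑ i, (v.1 i + 4) * (colF F (ix i) % 2 ^ M) := by
    have e1 : (K0 : ℤ) = ∑ i : GolayPt, 12 * 32 ^ ix i := by
      rw [sum_pt fun j => (12 : ℤ) * 32 ^ j]; decide +kernel
    rw [val, hr.cast, OFF_eq, e1, enc_apply, mul_sum, ← sum_add_distrib, ← sum_add_distrib,
      ← sum_add_distrib]
    exact sum_congr rfl fun i _ => by rw [hc.2 _ (ix_lt i)]; ring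
  have h4 : ∑ i, (v.1 i + 4) * (colF F (ix i) % 2 ^ M) ≡
      profN F b + 4 * ∑ j ∈ range 24, colF F j [ZMOD 2 ^ M] := by
    rw [← sum_colF F h, ← sum_pt, mul_sum, ← sum_add_distrib]
    exact Int.ModEq.sum fun i _ => by
      rw [← add_mul]; exact (Int.mod_modEq _ _).mul_left _
  generalize ∑ i, (v.1 i + 4) * (colF F (ix i) % 2 ^ M) = X at h3 h4
  have h5 := hr.1
  have h6 : Nat.land n 0xffffffffffffffffffffffffffffff = N :=
    (Nat.and_two_pow_sub_one_eq_mod n 120).trans (by omega)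
  have h7 : Nat.land (Nat.shiftRight n 120) mask = tgt F M b := by
    rw [hm, tgt, ← h4]
    refine (Nat.and_two_pow_sub_one_eq_mod _ M).trans ?_
    have : X = (Nat.shiftRight n 120 : ℕ) := by
      rw [show Nat.shiftRight n 120 = n / 2 ^ 120 from Nat.shiftRight_eq_div_pow n 120]; omega
    rw [this]; norm_cast
  rw [tst, force_eq, h7, hb'.2, h6, hb'.1] at hn
  exact ⟨N, memL_iff.1 hn, hr⟩

/-- the elements of `K` which fix the vectors coded in `F` -/
def cS (K : Subgroup Co0) (F : List ℕ) : Subgroup Co0 where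
  carrier := {g | g ∈ K ∧ ∀ u ∈ F, g • toL u = toL u}
  one_mem' := ⟨one_mem _, fun _ _ => one_smul _ _⟩
  mul_mem' := fun ha hb => ⟨mul_mem ha.1 hb.1, fun u hu => by rw [mul_smul, hb.2 u hu, ha.2 u hu]⟩
  inv_mem' := fun ha => ⟨inv_mem ha.1, fun u hu => by rw [inv_smul_eq_iff, ha.2 u hu]⟩

theorem cS_nil (K : Subgroup Co0) : cS K [] = K := Subgroup.ext fun _ => and_iff_left (by simp)

/-- the maps are induced by elements which centralise `K` -/
def Cent (K : Subgroup Co0) (fs : List (ℕ → ℕ)) : Prop :=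
  ∀ f ∈ fs, ∃ h, Sim h f ∧ ∀ g ∈ K, g * h = h * g

/-- codes of lattice vectors -/
def Reps (F : List ℕ) : Prop := ∀ u ∈ F, Rep u (toL u).1

/-- code of a minimal vector -/
noncomputable def okV (N : ℕ) : Bool := chkN N && dotN N N == 32

theorem okV_spec {N : ℕ} (h : okV N = true) : Rep N (toL N).1 ∧ sqNorm (toL N).1 = 32 := by
  rw [okV, Bool.and_eq_true, beq_iff_eq] at h
  exact ⟨rep_toL h.1, (sqNorm_toL h.1).trans h.2⟩

/-- the columns for the packed inner products -/
noncomputable def colL (F : List ℕ) : List ℕ := (List.range 24).map fun j => (colF F j % 2 ^ 123).toNat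

/-- the packed columns -/
noncomputable def colD (F : List ℕ) : ℕ := (colL F).foldl (fun a c => Nat.add (Nat.shiftLeft a 140) c) 0

theorem packOK_col (F : List ℕ) : packOK (colL F) (colD F) = true := by
  simp only [packOK, band_eq_true, colD, Nat.beq_refl, and_true, List.all_eq_true, Nat.ble_eq]
  refine ⟨by simp [colL], fun c hc => ?_⟩
  obtain ⟨j, -, rfl⟩ := List.mem_map.1 hc
  have := Int.emod_lt_of_pos (colF F j) (show (0 : ℤ) < 2 ^ 123 by norm_num)
  omega

theorem act2_col {F : List ℕ} {N b : ℕ} (hN : N < 2 ^ 120) (hb : b < 2 ^ 120)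
    (h : ∀ u ∈ F, dotN N u = dotN b u) : act2 0 (colD F) N = act2 0 (colD F) b := by
  have key : ∀ N, (∀ u ∈ F, dotN N u = dotN b u) → (linD 0 (colL F) N : ℤ) ≡
      profN F b + ∑ i : GolayPt, 16 * colF F (ix i) [ZMOD 2 ^ 123] := fun N h => by
    rw [← sum_colF F (x := dec N) fun u hu => (dotN_eq N u).symm.trans (h u hu), ← sum_add_distrib,
      linD_eq, show (colL F).length = 24 by simp [colL], add_zero,
      ← sum_pt fun j => dg N j * (colL F).getD j 0]
    push_cast
    refine Int.ModEq.sum fun i _ => ?_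
    rw [← add_mul, dec, sub_add_cancel, show (colL F).getD (ix i) 0 = (colF F (ix i) % 2 ^ 123).toNat by
      simp [colL, List.getD_eq_getElem?_getD, ix_lt i],
      Int.toNat_of_nonneg (Int.emod_nonneg _ (by norm_num))]
    exact (Int.mod_modEq _ _).mul_left _
  have := (key N h).trans (key b fun _ _ => rfl).symm
  rw [act2_eq (packOK_col F) hN, act2_eq (packOK_col F) hb, act_eq, act_eq]
  unfold Int.ModEq at this
  omega

/-- counting -/
noncomputable def cntL (p : ℕ → Bool) (L : List ℕ) : ℕ :=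
  List.rec 0 (fun N _ ih => Bool.rec ih (Nat.succ ih) (p N)) L

theorem cntL_eq (p : ℕ → Bool) (L : List ℕ) : cntL p L = (L.filter p).length := by
  induction L with
  | nil => rfl
  | cons N L ih =>
    rw [List.filter_cons, show cntL p (N :: L) = Bool.rec (cntL p L) (cntL p L + 1) (p N) from rfl, ih]
    cases p N <;> rfl

/-- the number of candidates for the image of `b` -/
noncomputable def cnt (fs : List (ℕ → ℕ)) (L F : List ℕ) (b : ℕ) : ℕ :=
  force (colD F) fun D => force (act2 0 D b) fun t => cntL (fun N =>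
    band (Nat.beq (act2 0 D N) t) (allL fs fun f => dotN N (f N) == dotN b (f b))) L

theorem cnt_eq (fs : List (ℕ → ℕ)) (L F : List ℕ) (b : ℕ) : cnt fs L F b = (L.filter fun N =>
    band (Nat.beq (act2 0 (colD F) N) (act2 0 (colD F) b))
      (allL fs fun f => dotN N (f N) == dotN b (f b))).length := by
  rw [cnt, force_eq, force_eq, cntL_eq]

theorem dot_smul {K : Subgroup Co0} {F : List ℕ} (hF : Reps F) {g : Co0} (hg : g ∈ cS K F) {b : ℕ}
    (hb : Rep b (toL b).1) {u : ℕ} (hu : u ∈ F) : dotInt (g • toL b).1 (dec u) = dotN b u := by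
  rw [(hF u hu).2, ← hb.dot (hF u hu), ← dotInt_smul g (toL b), hg.2 u hu]

theorem Cent.reps {K : Subgroup Co0} {fs : List (ℕ → ℕ)} (hK : Cent K fs) {F : List ℕ} (hF : Reps F)
    {b : ℕ} (hb : okV b = true) : Reps ((fs.map fun f => f b) ++ F) := fun u hu => by
  refine (List.mem_append.1 hu).elim (fun hu => ?_) (hF u)
  obtain ⟨f, hf, rfl⟩ := List.mem_map.1 hu
  obtain ⟨h, s, -⟩ := hK f hf
  have := s _ _ (by rw [(okV_spec hb).2]; norm_num) (okV_spec hb).1
  rwa [this.toL_eq]

theorem Cent.mem {K : Subgroup Co0} {fs : List (ℕ → ℕ)} (hK : Cent K fs) {F : List ℕ}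
    {b : ℕ} (hb : okV b = true) {g : Co0} (hg : g ∈ cS K F) (h : g • toL b = toL b) :
    g ∈ cS K ((fs.map fun f => f b) ++ F) := ⟨hg.1, fun u hu => by
  refine (List.mem_append.1 hu).elim (fun hu => ?_) (hg.2 u)
  obtain ⟨f, hf, rfl⟩ := List.mem_map.1 hu
  obtain ⟨k, s, hh⟩ := hK f hf
  rw [(s _ _ (by rw [(okV_spec hb).2]; norm_num) (okV_spec hb).1).toL_eq, ← mul_smul, hh g hg.1,
    mul_smul, h]⟩

theorem Cent.card_le {K : Subgroup Co0} {fs : List (ℕ → ℕ)} (hK : Cent K fs) (F : List ℕ)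
    {b : ℕ} (hb : okV b = true) : Nat.card (cS K F) ≤ {w | ∃ g ∈ cS K F, g • toL b = w}.ncard *
      Nat.card (cS K ((fs.map fun f => f b) ++ F)) := by
  have : Finite Co0 := Nat.finite_of_card_ne_zero (by rw [card_Co0]; norm_num)
  rw [← card_inf_stabilizer_mul (cS K F) (toL b), mul_comm]
  exact Nat.mul_le_mul_left _ (Subgroup.card_le_of_le fun g hg => hK.mem hb hg.1 hg.2)

theorem Cent.orb_le {K : Subgroup Co0} {fs : List (ℕ → ℕ)} (hK : Cent K fs) {L F : List ℕ} (hF : Reps F)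
    {b : ℕ} (hb : okV b = true) (hL : ∀ g ∈ cS K F, ∃ N ∈ L, Rep N (g • toL b).1) :
    {w | ∃ g ∈ cS K F, g • toL b = w}.ncard ≤ cnt fs L F b := by
  classical
  obtain ⟨h1, h2⟩ := okV_spec hb
  rw [cnt_eq]
  refine le_trans ?_ ((card_image_le (f := toL)).trans (List.toFinset_card_le _))
  rw [← Set.ncard_coe_finset]
  refine Set.ncard_le_ncard ?_ (finite_toSet _)
  rintro _ ⟨g, hg, rfl⟩
  obtain ⟨N, h3, h4⟩ := hL g hg
  refine mem_image.2 ⟨N, List.mem_toFinset.2 (List.mem_filter.2 ⟨h3, band_eq_true.2 ⟨?_, ?_⟩⟩), h4.toL_eq⟩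
  · rw [act2_col h4.1 h1.1 fun u hu => by rw [dotN_eq, h4.2, dot_smul hF hg h1 hu], Nat.beq_refl]
  · refine (allL_iff _ _).2 fun f hf => beq_iff_eq.2 ?_
    obtain ⟨h, s, hh⟩ := hK f hf
    rw [← h4.dot (s _ _ (by rw [sqNorm_smul, h2]; norm_num) h4), ← h1.dot (s _ _ (by omega) h1),
      ← mul_smul, ← hh g hg.1, mul_smul, dotInt_smul]

/-- the product of the numbers of candidates -/
noncomputable def chN (fs : List (ℕ → ℕ)) (L bs : List ℕ) : List ℕ → ℕ :=
  List.rec (fun _ => 1) (fun b _ ih F => Nat.mul (cnt fs L F b)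
    (forceL ((fs.map fun f => f b) ++ F) ih)) bs

/-- the vectors fixed at the end -/
noncomputable def chF (fs : List (ℕ → ℕ)) (bs : List ℕ) : List ℕ → List ℕ :=
  List.rec (fun F => F) (fun b _ ih F => ih ((fs.map fun f => f b) ++ F)) bs

theorem Cent.chain {K : Subgroup Co0} {fs : List (ℕ → ℕ)} (hK : Cent K fs) {L F bs : List ℕ}
    (hF : Reps F) (hb : allL bs okV = true)
    (hL : ∀ b ∈ bs, ∀ g ∈ cS K F, ∃ N ∈ L, Rep N (g • toL b).1) :
    Reps (chF fs bs F) ∧ Nat.card (cS K F) ≤ chN fs L bs F * Nat.card (cS K (chF fs bs F)) := by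
  induction bs generalizing F with
  | nil => exact ⟨hF, (one_mul _).ge⟩
  | cons b bs ih =>
    obtain ⟨h1, h2⟩ := Bool.and_eq_true_iff.1 hb
    obtain ⟨h3, h4⟩ := ih (hK.reps hF h1) h2 fun c hc g hg => hL c (List.mem_cons_of_mem _ hc) g
      ⟨hg.1, fun u hu => hg.2 u (List.mem_append_right _ hu)⟩
    refine ⟨h3, (hK.card_le F h1).trans ?_⟩
    change _ ≤ cnt fs L F b * forceL _ (chN fs L bs) * _
    rw [forceL_eq, mul_assoc]
    exact Nat.mul_le_mul (hK.orb_le hF h1 (hL b List.mem_cons_self)) h4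

theorem Cent.stage {K : Subgroup Co0} {fs : List (ℕ → ℕ)} (hK : Cent K fs) {F c T L bs F' : List ℕ}
    {M p B mask n : ℕ} (hF : Reps F) (hm : mask = 2 ^ M - 1)
    (h : (colsOK F M c && tgtOK F M p B T bs && allL bs okV && pairOK (tst mask p B T L) c K0 &&
      Nat.ble (chN fs L bs F) n && chF fs bs F == F') = true)
    (h2 : ∀ k < 4096, cwOK (tst mask p B T L) c K0 k = true) :
    Reps F' ∧ Nat.card (cS K F) ≤ n * Nat.card (cS K F') := by
  simp only [Bool.and_eq_true, Nat.ble_eq, beq_iff_eq] at h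
  obtain ⟨⟨⟨⟨⟨hc, ht⟩, hb⟩, h1⟩, hn⟩, rfl⟩ := h
  have := hK.chain (L := L) hF hb fun b hb' g hg => by
    obtain ⟨h3, h4⟩ := okV_spec ((allL_iff _ _).1 hb b hb')
    exact closed hm hc ht h1 h2 hb' (by rw [sqNorm_smul, h4]) fun u hu => dot_smul hF hg h3 hu
  exact ⟨this.1, this.2.trans (Nat.mul_le_mul_right _ hn)⟩

theorem ncard_min : {v : leechLattice | sqNorm v.1 = 32}.ncard = 196560 := by
  rw [ncard_subtype fun x => sqNorm x = 32, ncard_norm32]

theorem Cent.first {K : Subgroup Co0} {fs : List (ℕ → ℕ)} (hK : Cent K fs) {b : ℕ} {F : List ℕ}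
    (h : (okV b && (fs.map fun f => f b) == F) = true) :
    Reps F ∧ Nat.card K ≤ {w | ∃ g ∈ K, g • toL b = w}.ncard * Nat.card (cS K F) ∧
      {w | ∃ g ∈ K, g • toL b = w}.ncard ≤ 196560 := by
  simp only [Bool.and_eq_true, beq_iff_eq] at h
  obtain ⟨h1, rfl⟩ := h
  have h2 := hK.card_le [] h1
  have h3 := hK.reps (F := []) (fun _ h => by simp at h) h1
  rw [cS_nil, List.append_nil] at h2
  rw [List.append_nil] at h3
  refine ⟨h3, h2, ncard_min ▸ Set.ncard_le_ncard ?_ (finite_norm 32)⟩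
  rintro _ ⟨g, -, rfl⟩
  exact (sqNorm_smul _ _).trans (okV_spec h1).2

/-- a coordinate of a linear combination -/
noncomputable def comb (F : List ℕ) (j : ℕ) : List ℤ → ℤ :=
  List.rec (fun _ => 0) (fun u _ ih cs => List.rec 0
    (fun c cs' _ => Int.add (Int.mul c (Int.subNatNat (dg u j) 16)) (ih cs')) cs) F

theorem exists_comb {K : Subgroup Co0} {F : List ℕ} (hF : Reps F) (cs : List ℤ) :
    ∃ w : leechLattice, (∀ i, w.1 i = comb F (ix i) cs) ∧ ∀ g ∈ cS K F, g • w = w := by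
  induction F generalizing cs with
  | nil => exact ⟨0, fun _ => rfl, fun _ _ => smul_zero _⟩
  | cons u F ih =>
    cases cs with
    | nil => exact ⟨0, fun _ => rfl, fun _ _ => smul_zero _⟩
    | cons c cs =>
      obtain ⟨w, h1, h2⟩ := ih (fun u hu => hF u (List.mem_cons_of_mem _ hu)) cs
      refine ⟨c • toL u + w, fun i => ?_, fun g hg => ?_⟩
      · change c * (toL u).1 i + w.1 i = c * Int.subNatNat (dg u (ix i)) 16 + comb F (ix i) cs
        rw [h1, ← (hF u List.mem_cons_self).2, Int.subNatNat_eq_coe]; rfl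
      · rw [smul_add, co0_smul_zsmul, hg.2 u List.mem_cons_self,
          h2 g ⟨hg.1, fun u hu => hg.2 u (List.mem_cons_of_mem _ hu)⟩]

/-- the vectors span the space -/
noncomputable def spanOK (F : List ℕ) (d : ℤ) (C : List (List ℤ)) : Bool :=
  d != 0 && allLT 24 fun a => allLT 24 fun j => comb F j (C.getD a []) == if j = a then d * 8 else 0

theorem card_of_span {K : Subgroup Co0} {F : List ℕ} (hF : Reps F) {d : ℤ} {C : List (List ℤ)}
    (h : spanOK F d C = true) : Nat.card (cS K F) = 1 := by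
  simp only [spanOK, Bool.and_eq_true, bne_iff_ne, allLT_iff, beq_iff_eq] at h
  refine Subgroup.card_eq_one.2 (eq_bot_iff.2 fun g hg => co0_ext_e8 fun a => ?_)
  obtain ⟨w, h1, h2⟩ := exists_comb (K := K) hF (C.getD (ix a) [])
  have : w = d • e8 a := Subtype.ext (funext fun i => by
    rw [h1, h.2 _ (ix_lt a) _ (ix_lt i)]
    simp [coe_e8, Pi.single_apply, ix_inj])
  have h3 := h2 g hg
  rw [this, co0_smul_zsmul] at h3
  rw [one_smul]
  exact smul_right_injective _ h.1 h3

theorem Cent.free {K : Subgroup Co0} {fs : List (ℕ → ℕ)} (hK : Cent K fs) {b : ℕ} {F : List ℕ}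
    (h : (okV b && (fs.map fun f => f b) == F) = true) (h1 : Nat.card (cS K F) ≤ 1) {g : Co0}
    (hg : g ∈ K) (e : g • toL b = toL b) : g = 1 := by
  have : Finite Co0 := Nat.finite_of_card_ne_zero (by rw [card_Co0]; norm_num)
  simp only [Bool.and_eq_true, beq_iff_eq] at h
  have := hK.mem (F := []) h.1 ((cS_nil K).symm ▸ hg) e
  rwa [List.append_nil, h.2, (Subgroup.card_le_one_iff_eq_bot _).1 h1] at this

theorem card_le_of_free {K : Subgroup Co0} {d : Co0} {v : leechLattice} (hv : sqNorm v.1 = 32)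
    (hf : ∀ g ∈ K, g • v = v → g = 1) (hn : ∀ g ∈ K, d⁻¹ * g * d ∈ K) {n : ℕ}
    (hd : ∀ i j : Fin n, ∀ g ∈ K, g • d ^ i.1 • v = d ^ j.1 • v → i = j) :
    n * Nat.card K ≤ 196560 := by
  have h1 : ∀ i : ℕ, ∀ g ∈ K, (d ^ i)⁻¹ * g * d ^ i ∈ K := fun i g hg => by
    induction i with
    | zero => simpa using hg
    | succ i ih => have := hn _ ih; rwa [pow_succ, mul_inv_rev, mul_assoc, mul_assoc, ← mul_assoc g,
        ← mul_assoc (d ^ i)⁻¹, ← mul_assoc (d ^ i)⁻¹, ← mul_assoc]
  have := (finite_norm 32).to_subtype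
  have := Nat.card_le_card_of_injective (fun x : Fin n × K => (⟨x.2.1 • d ^ x.1.1 • v, by
    simp only [Set.mem_ofPred_eq, sqNorm_smul, hv]⟩ : {v : leechLattice | sqNorm v.1 = 32}))
    fun ⟨i, g⟩ ⟨j, k⟩ e => by
      have e : (k⁻¹ * g).1 • d ^ i.1 • v = d ^ j.1 • v := by
        rw [Subgroup.coe_mul, mul_smul, Subgroup.coe_inv, inv_smul_eq_iff]; exact congrArg Subtype.val e
      obtain rfl := hd i j _ (k⁻¹ * g).2 e
      have := hf _ (h1 i _ (k⁻¹ * g).2) (by rw [mul_smul, mul_smul, e, inv_smul_smul])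
      rw [mul_assoc, inv_mul_eq_one, right_eq_mul, Subgroup.coe_mul, Subgroup.coe_inv,
        inv_mul_eq_one] at this
      rw [Subtype.ext this]
  rwa [Nat.card_prod, Nat.card_eq_fintype_card, Fintype.card_fin, Nat.card_coe_set_eq, ncard_min] at this

theorem dot_eq {g h : Co0} {f : ℕ → ℕ} (s : Sim h f) (e : g * h = h * g) {v w : leechLattice} {a b : ℕ}
    (hv : sqNorm v.1 < 256) (ha : Rep a v.1) (hb : Rep b w.1) (e' : g • v = w) :
    dotN a (f a) = dotN b (f b) := by
  subst e'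
  rw [← ha.dot (s _ _ hv ha), ← hb.dot (s _ _ (by rwa [sqNorm_smul]) hb), ← mul_smul, ← e, mul_smul,
    dotInt_smul]

end CfsgLib.Co1Loc
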