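import Mathlib
import Cfsg.Agent.Lib.Co1Loc.FiveD

/-!
The centraliser `5 × J2` in `Co1`.
-/

set_option autoImplicit false
set_option Elab.async false
set_option maxRecDepth 100000

namespace CfsgLib.Co1Loc.Five

open Cfsg CfsgLib.Leech CfsgLib.Golay CfsgLib.Co1Rec CfsgLib.MType CfsgLib.AltCover Subgroup

theorem simJ (i : ℕ) : Sim (mE JL i) (mF JL i) := sim_mE okJ i

theorem simA (i : ℕ) : Sim (mE AL i) (mF AL i) := sim_mE okA i

theorem pow5 : mE AL 4 ^ 5 = 1 := ((simA 4).pow 5).ext Sim.one (by decide +kernel)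

theorem ord5 : orderOf (mE AL 4 : Spor.Co1) = 5 :=
  have : Fact (Nat.Prime 5) := ⟨by norm_num⟩
  orderOf_eq_prime (congrArg QuotientGroup.mk pow5) (mk_ne_one (simA 4) (by decide +kernel))

theorem card5 : Nat.card (centralizer ({mE AL 4} : Set Co0)) ≤ 9828000 := by
  have hK := cent_pows (simA 4) 4
  obtain ⟨h1, h2, h3⟩ := hK.first (b := 0x8c5ef7be318c5ef8bdef8ce317c5f1) (F := F0) (by decide +kernel)
  have h4 := st1 hK h1
  rw [card_of_span h4.1 span1] at h4
  exact h2.trans (Nat.mul_le_mul h3 h4.2)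

theorem rel : HJ.Rel fun i => (mE JL i : Spor.Co1) :=
  ⟨⟨mk_one (simJ 0) (by decide +kernel), fun x hx => mk_one ((simJ x).mul (simJ _))
    ((by decide +kernel : ∀ x < 16, pmB (fun N => mF JL x (mF JL (HJ.ivl 3317950120735248 x) N)) = true) x hx)⟩,
    fun w hw => wd_one simJ ((allL_iff _ _).1
      (by decide +kernel : (allL HJ.relN fun w => pmB (wA (mF JL) w)) = true) w hw),
    wd_one simJ (by decide +kernel), fun i hi => by rw [mE_big (L := JL) hi]; rfl⟩

theorem comJA : ∀ i, ∀ j < 5, j ≠ 0 → mE JL i * mE AL j = mE AL j * mE JL i := fun i j hj h0 => by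
  rcases lt_or_ge i 13 with hi | hi
  · exact comm_of (simJ i) (simA j) (((by decide +kernel :
      ∀ i < 13, ∀ j < 5, j = 0 ∨ comB (mF JL i) (mF AL j) = true) i hi j hj).resolve_left h0)
  · rw [mE_big (L := JL) hi, mul_one, one_mul]

open scoped IsMulCommutative in
theorem nc : ¬ IsMulCommutative J2.PG := fun h =>
  absurd (IsSimpleGroup.prime_card (α := J2.PG)) (by rw [J2.card_PG]; norm_num)

theorem exists_J2 : ∃ φ : J2.PG →* Spor.Co1,
    (∃ e : Multiplicative (ZMod 5) × J2.PG ≃* centralizer (zpowers (mE AL 4 : Spor.Co1) : Set Spor.Co1),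
      ∀ b, (e (1, b) : Spor.Co1) = φ b) ∧
    Nonempty (centralizer (φ.range : Set Spor.Co1) ≃* alternatingGroup (Fin 5)) := by
  have : Fact (Nat.Prime 5) := ⟨by norm_num⟩
  obtain ⟨φ, h1, h2⟩ := rel.exists_inj (mk_ne_one (simJ 1) (by decide +kernel))
  have h3 : ∀ j < 5, j ≠ 0 → ∀ b, φ b ∈ centralizer {(mE AL j : Spor.Co1)} := fun j hj h0 b => by
    exact HJ.gen_le (K := comap φ (centralizer _)) (fun i _ _ => by
      rw [mem_comap, h2]; exact mem_centralizer_singleton_iff.2 (mk_comm (comJA i j hj h0)))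
      (HJ.genX.ge (mem_top b))
  refine ⟨φ, exists_prod_cyc ord5 φ h1 (h3 4 (by norm_num) (by norm_num))
    (center_simple fun _ => nc inferInstance) (Nat.lt_of_mul_lt_mul_left (a := 2)
      (((card_cent_co1 (by decide) pow5).symm.trans_le card5).trans_lt (by rw [J2.card_PG]; norm_num))), ?_⟩
  obtain ⟨ψ, h4, -, h5⟩ := exists_alt simA (m := 4) le_rfl (by decide +kernel)
  have h6 : ∀ g ∈ (centralizer (φ.range : Set Spor.Co1)).comap (QuotientGroup.mk' (center Co0)), ∀ i,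
      (g : Spor.Co1) * mE JL i = mE JL i * g := fun g hg i => (hg _ ⟨_, h2 i⟩).symm
  have h7 := st2 (cent_words simJ (by decide +kernel) h6) fun g hg => comm_zz.1 (by
    have := h6 g hg 1
    rwa [(simJ 1).ext (sim_sN (m := 8241104) (by decide +kernel)) (by decide +kernel)] at this)
  rw [card_of_span h7.1 span2, card_comap_co1] at h7
  rw [← eq_of_card_lt (H := ψ.range) (K := centralizer (φ.range : Set Spor.Co1)) (by
    rintro _ ⟨a, rfl⟩
    refine h5 _ (fun i h h' => ?_) a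
    rintro _ ⟨b, rfl⟩
    exact mem_centralizer_singleton_iff.1 (h3 i (by omega) (by omega) b)) (by
    rw [← Nat.card_congr (MonoidHom.ofInjective h4).toEquiv, card_alt (n := 3) (k := 60) rfl]; omega)]
  exact ⟨(MonoidHom.ofInjective h4).symm⟩

theorem exists_conj {b x : Spor.Co1} (hb : b ^ 5 = 1) (hz : b * zz = zz * b) (hx : x ∈ QQ) (h1 : x ≠ 1)
    (h2 : x ≠ zz) (hc : b * x = x * b) : ∃ g, g * b * g⁻¹ ∈ zpowers (mE AL 4 : Spor.Co1) := by
  classical
  have : Fact (Nat.Prime 5) := ⟨by norm_num⟩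
  obtain ⟨z4, a4⟩ := act_spec (simA 4) (ms := [243, 246, 93, 252, 22, 463, 496, 134, 256]) (by decide +kernel)
  obtain ⟨z5, a5⟩ := act_spec (simA 5) (ms := [411, 146, 148, 245, 231, 206, 208, 409, 256]) (by decide +kernel)
  have h3 : mE AL 0 * mE AL 4 = mE AL 5 * mE AL 0 :=
    ((simA 0).mul (simA 4)).ext ((simA 5).mul (simA 0)) (by decide +kernel)
  have h4 : ∀ i < 5, pmB (fun N => iter (mF AL 4) i (mF AL 5 N)) = false := by decide +kernel
  obtain ⟨g, i, hi, j, hj, e⟩ := exists_conj_two (G := centralizer {zz}) (p := 5)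
    (x := ⟨mE AL 4, mem_centralizer_singleton_iff.2 (comm_zz.2 z4)⟩)
    (y := ⟨mE AL 5, mem_centralizer_singleton_iff.2 (comm_zz.2 z5)⟩)
    (b := ⟨b, mem_centralizer_singleton_iff.2 hz⟩) ((orderOf_mk _ _).trans ord5)
    (Subtype.ext (mk_one ((simA 5).pow 5) (by decide +kernel)))
    (Subtype.ext (mk_comm (comm_of (simA 4) (simA 5) (by decide +kernel)))) (fun h => by
      obtain ⟨i, hi, e⟩ := Finset.mem_image.1 (mem_zpowers_iff_mem_range_orderOf.1 (inv_mem h))
      rw [orderOf_mk, ord5, Finset.mem_range] at hi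
      exact mk_ne_one (((simA 4).pow i).mul (simA 5)) (h4 i hi)
        (congrArg Subtype.val (eq_inv_iff_mul_eq_one.1 e)))
    (by rw [ct_QQ.card_cent]; norm_num) (Subtype.ext hb)
  have e : g * b * (g : Spor.Co1)⁻¹ = (mE AL 4 ^ i * mE AL 5 ^ j : Co0) := congrArg Subtype.val e
  rcases eq_or_ne j 0 with rfl | j0
  · exact ⟨g, e ▸ mul_mem (pow_mem (mem_zpowers _) i) (one_mem _)⟩
  rcases eq_or_ne i 0 with rfl | i0
  · refine ⟨(mE AL 0 : Spor.Co1)⁻¹ * g, j, ?_⟩
    rw [mul_inv_rev, mul_assoc, mul_assoc, ← mul_assoc b, ← mul_assoc g.1, ← mul_assoc g.1, e, pow_zero,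
      one_mul, ← mul_inv_eq_iff_eq_mul.2 h3, conj_pow]
    simp [mul_assoc]
  obtain ⟨n, hn, e1⟩ := mem_QQ.1 (pre_QQ.norm g (mem_centralizer_singleton_iff.1 g.2) x hx)
  obtain ⟨h5, h6⟩ := pow_act a5 j n hn
  obtain ⟨h7, h8⟩ := pow_act a4 i _ h5
  have h9 : (allLT 5 fun i => allLT 5 fun j => i == 0 || j == 0 || allLT 512 fun n =>
      (iter (ac [243, 246, 93, 252, 22, 463, 496, 134, 256]) i
        (iter (ac [411, 146, 148, 245, 231, 206, 208, 409, 256]) j n) ^^^ n) % 256 != 0 ||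
      n % 256 == 0) = true := by
    decide +kernel
  simp only [allLT_iff, Bool.or_eq_true, beq_iff_eq, bne_iff_ne] at h9
  have h10 := ((h9 i hi j hj).resolve_left (by tauto) n hn).resolve_left (not_not.2 <| xor_of_mk h7 hn (by
    rw [← h8, ← h6, ← mul_assoc, ← mul_assoc, mul_assoc _ _ (_ ^ i)⁻¹, ← mul_inv_rev,
      QuotientGroup.mk_mul, QuotientGroup.mk_mul _ _ (ι n), QuotientGroup.mk_inv, ← e, ← e1]
    calc _ = g * (b * x) * b⁻¹ * (g : Spor.Co1)⁻¹ := by group
      _ = _ := by rw [hc]; group))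
  obtain rfl | rfl : n = 0 ∨ n = 256 := by omega
  · rw [ι_zero] at e1
    exact absurd (by simpa using e1) h1
  · rw [ι_256, mul_inv_eq_iff_eq_mul] at e1
    exact absurd (mul_left_cancel (e1.trans (mem_centralizer_singleton_iff.1 g.2).symm)) h2

end CfsgLib.Co1Loc.Five
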