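import Mathlib
import Cfsg.Agent.Lib.Co1Loc.ThreeD
import Cfsg.Agent.Lib.Co1Loc.Rot
import Cfsg.Agent.Lib.Suz.Main

/-!
The centraliser `3.Suz` in `Co1`.
-/

set_option autoImplicit false
set_option Elab.async false
set_option maxRecDepth 100000

namespace CfsgLib.Co1Loc.Three

open Cfsg CfsgLib.Leech CfsgLib.Golay CfsgLib.Co1Rec CfsgLib.MType Subgroup QuadraticMap
open Five (AL simA)

theorem simS (i : ℕ) : Sim (mE SL i) (mF SL i) := sim_mE okS i

theorem pow3 : mE AL 1 ^ 3 = 1 := ((simA 1).pow 3).ext Sim.one (by decide +kernel)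

theorem ord3 : orderOf (mE AL 1 : Spor.Co1) = 3 :=
  orderOf_eq_prime (congrArg QuotientGroup.mk pow3) (mk_ne_one (simA 1) (by decide +kernel))

/-- the centraliser -/
abbrev CC : Subgroup Spor.Co1 := centralizer (zpowers (mE AL 1 : Spor.Co1) : Set Spor.Co1)

/-- the generators -/
noncomputable def sg (i : ℕ) : CC := ⟨mE SL i, by
  rw [CC, cent_zpowers, mem_centralizer_singleton_iff]
  rcases lt_or_ge i 7 with hi | hi
  · exact mk_comm (comm_of (simS i) (simA 1)
      ((by decide +kernel : ∀ i < 7, comB (mF SL i) (mF AL 1) = true) i hi))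
  · rw [mE_big (L := SL) hi]; simp⟩

theorem sg_sq (i : ℕ) : sg i * sg i = 1 := Subtype.ext (by
  rcases lt_or_ge i 7 with hi | hi
  · exact mk_one ((simS i).mul (simS i))
      ((by decide +kernel : ∀ i < 7, pmB (fun N => mF SL i (mF SL i N)) = true) i hi)
  · show (mE SL i * mE SL i : Spor.Co1) = 1
    rw [mE_big (L := SL) hi]; simp)

theorem sg_zero : (sg 0 : Spor.Co1) = zz := congrArg QuotientGroup.mk
  ((simS 0).ext (sim_sN (m := 8241104) (by decide +kernel)) (by decide +kernel))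

theorem coe_wd {w : List ℕ} {k : ℕ}
    (h : pmB (fun N => iter (mF AL 1) k (wA (fun x => mF SL (x / 2)) w N)) = true) :
    (wd (fun x => sg (x / 2)) w : CC) = ((mE AL 1 : Spor.Co1) ^ k)⁻¹ := by
  have := mk_one (((simA 1).pow k).mul (sim_wd (fun x => simS (x / 2)) w)) h
  rw [QuotientGroup.mk_mul, ← eq_inv_mul_iff_mul_eq, mul_one] at this
  exact (map_wd CC.subtype _ w).trans ((map_wd (QuotientGroup.mk' _) _ w).symm.trans this)

theorem exists_suz : ∃ f : CC →* Spor.Suz, Function.Surjective f ∧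
    (∀ g, f g = 1 ↔ g.1 ∈ zpowers (mE AL 1 : Spor.Co1)) ∧ (∀ i < 7, f (sg i) = Suz.g i) ∧
    Group.IsPerfect CC := by
  let W := (zpowers (mE AL 1 : Spor.Co1)).subgroupOf CC
  have hW : W ≤ center CC := fun w hw => mem_center_iff.2 fun g => Subtype.ext (g.2 _ hw).symm
  have : W.Normal := ⟨fun w hw g => by rwa [mem_center_iff.1 (hW hw), mul_inv_cancel_right]⟩
  have h1 : ∀ x, CosetEnum.evL (fun i => (sg i : CC ⧸ W)) x = sg (x / 2) := fun x => by
    rw [CosetEnum.evL]
    split_ifs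
    exacts [rfl, inv_eq_of_mul_eq_one_right (congrArg QuotientGroup.mk (sg_sq _))]
  have h2 := (allL_iff _ _).1 (by decide +kernel : (allL Suz.S4_rels fun w => anyL [0, 1, 2] fun k =>
    pmB fun N => iter (mF AL 1) k (wA (fun x => mF SL (x / 2)) w N)) = true)
  let θ : Spor.Suz →* CC ⧸ W := PresentedGroup.toGroup (Suz.lift_rel (f := fun i => (sg i : CC ⧸ W))
    (fun x _ => by rw [h1]; exact congrArg QuotientGroup.mk (sg_sq _)) fun w hw => by
      obtain ⟨k, -, hk⟩ := (anyL_iff _ _).1 (h2 w hw)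
      rw [CosetEnum.ev, funext h1]
      exact (map_wd (QuotientGroup.mk' W) _ w).symm.trans ((QuotientGroup.eq_one_iff _).2
        (mem_subgroupOf.2 (coe_wd hk ▸ inv_mem (pow_mem (mem_zpowers _) k)))))
  have h3 : ∀ i < 7, θ (Suz.g i) = sg i := fun i hi => by
    obtain ⟨x, rfl⟩ := (by decide : ∀ i < 7, ∃ x ∈ Suz.gl, Suz.idx x = i) i hi |>.imp fun _ h => h.2
    rw [Suz.hg]; exact PresentedGroup.toGroup.of _
  have := Suz.simple
  have h4 : Function.Injective θ := (MonoidHom.ker_eq_bot_iff θ).1 (θ.normal_ker.eq_bot_or_eq_top.resolve_right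
    fun e => by
      have := orderOf_dvd_of_mem_zpowers (mem_subgroupOf.1 ((QuotientGroup.eq_one_iff _).1
        ((h3 0 (by norm_num)).symm.trans (e ▸ mem_top _ : _ ∈ θ.ker))))
      rw [sg_zero, es_QQ.orderOf_eq, ord3] at this
      omega)
  let e := MulEquiv.ofBijective θ (h4.bijective_of_nat_card_le (by
    have h5 := card_eq_card_quotient_mul_card_subgroup W
    have h6 := (card_cent_co1 (by decide) pow3).symm.trans_le card3
    rw [Nat.card_congr (subgroupOfEquivOfLe (le_centralizer _)).toEquiv, Nat.card_zpowers, ord3] at h5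
    rw [← cent_zpowers] at h6
    rw [Suz.card_eq]
    exact Nat.le_of_mul_le_mul_right (c := 3) (h5.ge.trans (Nat.le_of_mul_le_mul_left h6 two_pos)) three_pos))
  let f := e.symm.toMonoidHom.comp (QuotientGroup.mk' W)
  have h5 : Function.Surjective f := e.symm.surjective.comp (QuotientGroup.mk'_surjective W)
  have h6 : ∀ g, f g = 1 ↔ g ∈ W := fun g => e.symm.map_eq_one_iff.trans (QuotientGroup.eq_one_iff _)
  refine ⟨f, h5, h6, fun i hi => e.symm_apply_eq.2 (h3 i hi).symm, ⟨?_⟩⟩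
  have h7 : commutator CC ⊔ f.ker = ⊤ := by
    rw [← comap_map_eq, commutator_def, map_commutator, map_top_of_surjective _ h5, ← commutator_def,
      (Comp.qs_of_isSimpleGroup (X := Spor.Suz) fun _ => by
        open scoped IsMulCommutative in
        exact absurd (IsSimpleGroup.prime_card (α := Spor.Suz)) (by rw [Suz.card_eq]; norm_num)).1.1, comap_top]
  have h8 : ∀ i, sg i ∈ commutator CC := fun i => by
    obtain ⟨k, hk, w, hw, e⟩ := mem_sup_of_normal_left.1 (h7 ▸ mem_top (sg i))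
    have h9 : w ^ 3 = 1 := Subtype.ext (orderOf_dvd_iff_pow_eq_one.1
      (ord3 ▸ orderOf_dvd_of_mem_zpowers ((h6 w).1 hw)))
    have := pow_mem hk 3
    rwa [← mul_one (k ^ 3), ← h9, ← (Commute.mul_pow (mem_center_iff.1 (hW ((h6 w).1 hw)) k)), e, pow_three,
      sg_sq, mul_one] at this
  rw [← h7, left_eq_sup]
  rintro ⟨_, _⟩ hw
  obtain ⟨k, rfl⟩ := mem_subgroupOf.1 ((h6 _).1 hw)
  have := zpow_mem (inv_mem (wd_mem (w := [2, 10, 12, 2, 10, 12, 2, 10, 12, 2, 10, 12, 2, 10, 12])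
    fun i _ => h8 (i / 2))) k
  convert this
  rw [coe_zpow, coe_inv, coe_wd (k := 1) (by decide +kernel), inv_inv, pow_one]

theorem act3 : mE AL 1 * z0 = z0 * mE AL 1 ∧ ∀ n < 512, ac [1, 491, 64, 481, 249, 32, 237, 105, 256] n < 512 ∧
    mE AL 1 * ι n * (mE AL 1)⁻¹ = ι (ac [1, 491, 64, 481, 249, 32, 237, 105, 256] n) :=
  act_spec (simA 1) (by decide +kernel)

theorem rot : Rot (ρ0 (mE AL 1)) (vb 233) (vb 68) := by
  refine ⟨q_vb _ (by norm_num), q_vb _ (by norm_num), polar_vb (by norm_num) (by norm_num), fun v => ?_⟩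
  obtain ⟨n, hn, rfl⟩ := vb_surj v
  have h := act3.2 n (by omega)
  rw [← π0_ι (n := n) (by omega), ct0.act _ (comm_zz.2 act3.1) _ (mem_QQ.2 ⟨n, by omega, rfl⟩),
    ← QuotientGroup.mk_mul, ← QuotientGroup.mk_inv, ← QuotientGroup.mk_mul, h.2, π0_ι h.1, π0_ι (by omega),
    polar_vb hn (by norm_num), polar_vb hn (by norm_num)]
  clear h
  revert n
  decide +kernel

end CfsgLib.Co1Loc.Three
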